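import Mathlib
import Cfsg.Prelude.Def_Local
import Cfsg.Agent.Lib.Helper63.HallHigman

/-!
# Hall–Higman Lemma 1.2.3, normal-subgroup form (helper63)

* `normal_le_pCore_of_centralizes`: if `O_{p'}(H) = 1`, `C ⊴ H` has finite `p`-length and
  centralizes `O_p(H)`, then `C ≤ O_p(H)`.
-/

set_option autoImplicit false

namespace Cfsg.Agent.Lib.Helper63

open Cfsg

/-- **Hall–Higman Lemma 1.2.3**, normal subgroup form: a normal subgroup `C` of finite `p`-length
centralizing `O_p(H)` lies in `O_p(H)`, provided `O_{p'}(H) = 1`. -/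
theorem normal_le_pCore_of_centralizes {H : Type*} [Group H] [Finite H] {p : ℕ} [Fact p.Prime]
    (h0 : pPrimeCore p H = ⊥) (C : Subgroup H) [hCn : C.Normal]
    (hC : C ≤ Subgroup.centralizer (pCore p H : Set H)) (hl : ∃ k, PLengthLE p k C) :
    C ≤ pCore p H := by
  have h1 : pPrimeCore p C = ⊥ := by
    haveI : (pPrimeCore p C).Characteristic := pPrimeCore_characteristic' p C
    have hn : ((pPrimeCore p C).map C.subtype).Normal := ConjAct.normal_of_characteristic_of_normal
    have hcard : (Nat.card ((pPrimeCore p C).map C.subtype)).Coprime p := by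
      rw [Subgroup.card_map_of_injective C.subtype_injective]
      exact card_pPrimeCore_coprime' p C
    have h2 := le_pPrimeCore' hn hcard
    rw [h0, le_bot_iff, Subgroup.map_eq_bot_iff_of_injective _ C.subtype_injective] at h2
    exact h2
  have h2 : (pCore p C).map C.subtype ≤ pCore p H := by
    haveI : (pCore p C).Characteristic := pCore_characteristic' p C
    exact le_pCore' ConjAct.normal_of_characteristic_of_normal ((pCore_isPGroup' p C).map _)
  have h3 : pCore p C ≤ Subgroup.center C := by
    intro x hx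
    rw [Subgroup.mem_center_iff]
    intro c
    have hxP : (x : H) ∈ pCore p H := h2 ⟨x, hx, rfl⟩
    have hc : (c : H) ∈ Subgroup.centralizer (pCore p H : Set H) := hC c.2
    rw [Subgroup.mem_centralizer_iff] at hc
    exact Subtype.ext (hc _ hxP).symm
  obtain ⟨k, hk⟩ := hl
  have h5 := U_le_pCore_of_central h1 h3 (2 * k + 1)
  rw [(plengthLE_iff p k C).1 hk] at h5
  intro x hx
  exact h2 ⟨⟨x, hx⟩, h5 trivial, rfl⟩

end Cfsg.Agent.Lib.Helper63
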